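import Mathlib
import Cfsg.Agent.Lib.Helper23.TransHyp
import Cfsg.Agent.Lib.Helper23.PGroupEA
import Cfsg.Agent.Lib.Helper69.PSolvable
import Cfsg.Agent.S0629

/-!
`p`-solvable groups are `p`-constrained; a lemma from Thompson's N-group paper on invariant
`p'`-subgroups.
-/

set_option autoImplicit false

namespace Cfsg.Agent.Lib.Helper23

open Cfsg
open scoped commutatorElement Pointwise

universe u

section PSolvConstr

variable {G : Type u} [Group G] [Finite G]

/-- Finite `p`-solvable groups are `p`-constrained. -/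
theorem isPConstrained_of_isPSolvable (p : ℕ) [Fact p.Prime] (h : Cfsg.IsPSolvable p G) :
    Cfsg.IsPConstrained p G := by
  obtain ⟨P⟩ : Nonempty (Sylow p ↥(Cfsg.pPrimePCore p G)) := inferInstance
  exact Cfsg.Agent.S0629.result P (Cfsg.Agent.Lib.Helper69.isPSolvable_subgroup p h _)

/-- If `B` (elementary abelian) is generated by the elements of order `p` of a Sylow
`p`-subgroup of `C_G(b₀)`, `b₀ ∈ B`, then `B` contains every element of order `p` of `C_G(B)`. -/
theorem mem_of_omega_sylow_centralizer {p : ℕ} [Fact p.Prime] (B : Subgroup G)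
    (hB : Cfsg.IsElementaryAbelian p B) (b₀ : G) (hb₀ : b₀ ∈ B)
    (P : Sylow p ↥(Subgroup.centralizer ({b₀} : Set G)))
    (hBP : B = Subgroup.closure {x : G | x ∈ ((P : Subgroup ↥(Subgroup.centralizer ({b₀} : Set G))).map
      (Subgroup.centralizer ({b₀} : Set G)).subtype : Subgroup G) ∧ orderOf x = p})
    (x : G) (hx : x ∈ Subgroup.centralizer (B : Set G)) (hxo : orderOf x = p) : x ∈ B := by
  have hBcomm := comm_of_isMulCommutative hB.1
  have hxp : x ^ p = 1 := by rw [← hxo]; exact pow_orderOf_eq_one x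
  have hD : Cfsg.IsElementaryAbelian p (B ⊔ Subgroup.zpowers x) := by
    apply isEA_sup hB (isEA_zpowers hxp)
    intro a ha b hb
    obtain ⟨m, rfl⟩ := Subgroup.mem_zpowers_iff.mp hb
    rw [Subgroup.mem_centralizer_iff] at hx
    have hc : Commute a x := hx a ha
    exact hc.zpow_right m
  have hDp : IsPGroup p ↥(B ⊔ Subgroup.zpowers x) := by
    intro y
    refine ⟨1, Subtype.ext ?_⟩
    rw [pow_one]
    exact hD.2 y y.2
  have hDC : B ⊔ Subgroup.zpowers x ≤ Subgroup.centralizer ({b₀} : Set G) := by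
    apply sup_le
    · intro b hb
      rw [mem_centralizer_singleton]
      exact hBcomm b₀ hb₀ b hb
    · rw [Subgroup.zpowers_le, mem_centralizer_singleton]
      rw [Subgroup.mem_centralizer_iff] at hx
      exact hx b₀ hb₀
  obtain ⟨P', hP'⟩ :=
    (hDp.comap_subtype (K := Subgroup.centralizer ({b₀} : Set G))).exists_le_sylow
  obtain ⟨c, hc⟩ := MulAction.exists_smul_eq ↥(Subgroup.centralizer ({b₀} : Set G)) P' P
  have key : ∀ d ∈ B ⊔ Subgroup.zpowers x, (c : G) * d * (c : G)⁻¹ ∈ B := by
    intro d hd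
    by_cases hd1 : d = 1
    · rw [hd1]
      simp
    · have hdo : orderOf d = p := orderOf_eq_prime (hD.2 d hd) hd1
      rw [hBP]
      apply Subgroup.subset_closure
      refine ⟨?_, ?_⟩
      · refine ⟨c * ⟨d, hDC hd⟩ * c⁻¹, ?_, rfl⟩
        rw [← hc, Sylow.coe_subgroup_smul, SetLike.mem_coe,
          Cfsg.Agent.Lib.Helper1.mem_conj_smul]
        have e : c⁻¹ * (c * ⟨d, hDC hd⟩ * c⁻¹) * c = ⟨d, hDC hd⟩ := by group
        rw [e]
        exact hP' hd
      · have h1 := orderOf_injective (MulAut.conj (c : G)).toMonoidHom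
          (MulAut.conj (c : G)).injective d
        rw [← hdo, ← h1]
        rfl
  have hcard : Nat.card ↥(B ⊔ Subgroup.zpowers x) ≤ Nat.card B := by
    have hle : (B ⊔ Subgroup.zpowers x).map (MulAut.conj (c : G)).toMonoidHom ≤ B := by
      rintro _ ⟨d, hd, rfl⟩
      exact key d hd
    have h1 := Subgroup.card_le_of_le hle
    rwa [card_mapConj] at h1
  have hBD : B = B ⊔ Subgroup.zpowers x := Subgroup.eq_of_le_of_card_ge le_sup_left hcard
  rw [hBD]
  exact Subgroup.mem_sup_right (Subgroup.mem_zpowers x)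

end PSolvConstr

end Cfsg.Agent.Lib.Helper23
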