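import Cfsg.Agent.Lib.Helper23.KConn
import Cfsg.Agent.Lib.Helper23.Compl
import Cfsg.Agent.Lib.Helper23.TypeP
import Cfsg.Agent.Lib.Helper4.DihedralHom

/-!
Thompson's dihedral lemma: an elementary abelian 2-group acting faithfully on a solvable group of
odd order.
-/

set_option autoImplicit false

namespace Cfsg.Agent.Lib.Helper23

/-- `T` normalises `K` elementwise. -/
def ConjInv {G : Type*} [Group G] (T K : Subgroup G) : Prop :=
  ∀ g ∈ T, ∀ k ∈ K, g * k * g⁻¹ ∈ K

/-- An involution centralising a normal subgroup `N` of the odd-order group `M` and the centralizer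
of `N` in `M` centralises `M`. -/
theorem comm_of_comm_normal_centralizer {G : Type*} [Group G] (M N : Subgroup G) (b : G)
    (hNM : ConjInv M N)
    (hbM : ∀ m ∈ M, b * m * b⁻¹ ∈ M)
    (hodd : ∀ m ∈ M, m * m = 1 → m = 1)
    (hb2 : b * b = 1)
    (hbN : ∀ n ∈ N, b * n = n * b)
    (hbC : ∀ c ∈ M, (∀ n ∈ N, c * n = n * c) → b * c = c * b) :
    ∀ m ∈ M, b * m = m * b := by
  intro m hm
  have hbinv : b⁻¹ = b := inv_eq_of_mul_eq_one_left hb2
  have hb2' : b⁻¹ * b⁻¹ = 1 := by rw [hbinv, hb2]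
  set c := m⁻¹ * (b * m * b⁻¹) with hc
  have hcM : c ∈ M := M.mul_mem (M.inv_mem hm) (hbM m hm)
  have hcN : ∀ n ∈ N, c * n = n * c := by
    intro n hn
    have h1 := hbN (m * n * m⁻¹) (hNM m hm n hn)
    have h2 := hbN n hn
    have h3 : b⁻¹ * n = n * b⁻¹ := by
      calc b⁻¹ * n = b⁻¹ * (n * b) * b⁻¹ := by group
        _ = b⁻¹ * (b * n) * b⁻¹ := by rw [h2]
        _ = n * b⁻¹ := by group
    calc c * n = m⁻¹ * b * m * (b⁻¹ * n) := by rw [hc]; group
      _ = m⁻¹ * b * m * (n * b⁻¹) := by rw [h3]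
      _ = m⁻¹ * (b * (m * n * m⁻¹)) * m * b⁻¹ := by group
      _ = m⁻¹ * ((m * n * m⁻¹) * b) * m * b⁻¹ := by rw [h1]
      _ = n * c := by rw [hc]; group
  have hbc := hbC c hcM hcN
  have hinvc : b * c * b⁻¹ = c⁻¹ := by
    calc b * c * b⁻¹ = b * m⁻¹ * b * m * (b⁻¹ * b⁻¹) := by rw [hc]; group
      _ = b * m⁻¹ * b * m := by rw [hb2', mul_one]
      _ = b * m⁻¹ * b⁻¹ * m := by rw [hbinv]
      _ = c⁻¹ := by rw [hc]; group
  have hcc : c = c⁻¹ := by
    rw [← hinvc, hbc]; group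
  have hc1 : c = 1 := by
    apply hodd c hcM
    nth_rewrite 2 [hcc]
    exact mul_inv_cancel c
  have h4 : b * m * b⁻¹ = m := by
    have : m * c = b * m * b⁻¹ := by rw [hc]; group
    rw [← this, hc1, mul_one]
  calc b * m = (b * m * b⁻¹) * b := by group
    _ = m * b := by rw [h4]

/-- Fixed points of an involution modulo a central subgroup lift, in the form needed below. -/
theorem mul_conj_mem_of_fixed_le {G : Type*} [Group G] [Finite G] (N Z : Subgroup G) (b : G)
    (hb2 : b * b = 1)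
    (hbN : ∀ n ∈ N, b * n * b⁻¹ ∈ N)
    (hcomm : ∀ n ∈ N, ∀ n' ∈ N, n * n' * n⁻¹ * n'⁻¹ ∈ Z)
    (hZN : Z ≤ N)
    (hodd : ∀ z ∈ Z, Odd (orderOf z))
    (hfix : ∀ c ∈ N, b * c = c * b → c ∈ Z) :
    ∀ n ∈ N, n * (b * n * b⁻¹) ∈ Z := by
  intro n hn
  have hbinv : b⁻¹ = b := inv_eq_of_mul_eq_one_left hb2
  have hb2' : b⁻¹ * b⁻¹ = 1 := by rw [hbinv, hb2]
  set w := n * (b * n * b⁻¹) with hw
  have hwN : w ∈ N := N.mul_mem hn (hbN n hn)
  have hbw : b * w * b⁻¹ = (b * n * b⁻¹) * n := by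
    calc b * w * b⁻¹ = (b * n * b⁻¹) * (b * b) * n * (b⁻¹ * b⁻¹) := by rw [hw]; group
      _ = (b * n * b⁻¹) * n := by rw [hb2, hb2', mul_one, mul_one]
  set c := w⁻¹ * (b * w * b⁻¹) with hc
  have hcZ : c ∈ Z := by
    have h1 : c = (b * n * b⁻¹)⁻¹ * n⁻¹ * ((b * n * b⁻¹)⁻¹)⁻¹ * (n⁻¹)⁻¹ := by
      rw [hc, hbw, hw]; group
    rw [h1]
    exact hcomm _ (N.inv_mem (hbN n hn)) _ (N.inv_mem hn)
  have hbc : b * c * b⁻¹ = c⁻¹ := by
    have h1 : b * c * b⁻¹ = (b * w * b⁻¹)⁻¹ * (b * b) * w * (b⁻¹ * b⁻¹) := by rw [hc]; group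
    rw [h1, hb2, hb2', mul_one, mul_one, hc]; group
  obtain ⟨k, hk⟩ := hodd c hcZ
  set r := c ^ (k + 1) with hr
  have hrZ : r ∈ Z := Z.pow_mem hcZ _
  have hrr : r * r = c := by
    rw [hr, ← pow_add]
    have : k + 1 + (k + 1) = orderOf c + 1 := by omega
    rw [this, pow_succ, pow_orderOf_eq_one, one_mul]
  have hbr : b * r * b⁻¹ = r⁻¹ := by
    rw [hr, ← conj_pow, hbc, inv_pow]
  have hwr : b * (w * r) = (w * r) * b := by
    have h1 : b * (w * r) * b⁻¹ = w * r := by
      calc b * (w * r) * b⁻¹ = (b * w * b⁻¹) * (b * r * b⁻¹) := by group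
        _ = (w * c) * r⁻¹ := by rw [hbr, hc]; group
        _ = w * (r * r) * r⁻¹ := by rw [hrr]
        _ = w * r := by group
    calc b * (w * r) = (b * (w * r) * b⁻¹) * b := by group
      _ = (w * r) * b := by rw [h1]
  have h2 := hfix (w * r) (N.mul_mem hwN (hZN hrZ)) hwr
  have h3 : w = (w * r) * r⁻¹ := by group
  rw [h3]
  exact Z.mul_mem h2 (Z.inv_mem hrZ)

/-- In an abelian group of odd order acted on by an elementary abelian 2-group `A`, every element
of `A` acting non-trivially inverts some common eigenvector of `A`. -/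
theorem exists_eigen_of_abelian {G : Type*} [Group G] [Finite G] (M A : Subgroup G)
    (hA : Cfsg.IsElementaryAbelian 2 A) (hAM : ConjInv A M)
    (hMab : ∀ x ∈ M, ∀ y ∈ M, x * y = y * x)
    (b : G) (hb : b ∈ A) (hbM : ¬ ∀ m ∈ M, b * m = m * b) :
    ∃ x ∈ M, x ≠ 1 ∧ (∀ a ∈ A, a * x * a⁻¹ = x ∨ a * x * a⁻¹ = x⁻¹) ∧ b * x * b⁻¹ = x⁻¹ := by
  have hA2 : ∀ a ∈ A, a * a = 1 := fun a ha => by rw [← pow_two]; exact hA.2 a ha
  have hAinv : ∀ a ∈ A, a⁻¹ = a := fun a ha => inv_eq_of_mul_eq_one_left (hA2 a ha)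
  have hAc : ∀ a ∈ A, ∀ a' ∈ A, a * a' = a' * a := fun a ha a' ha' => isEA_comm hA ha ha'
  have hb2 := hA2 b hb
  have hbinv := hAinv b hb
  have hb2' : b⁻¹ * b⁻¹ = 1 := by rw [hbinv, hb2]
  let I : Subgroup G :=
    { carrier := {m | m ∈ M ∧ b * m * b⁻¹ = m⁻¹}
      one_mem' := ⟨M.one_mem, by simp⟩
      mul_mem' := by
        rintro x y ⟨hx, hx'⟩ ⟨hy, hy'⟩
        refine ⟨M.mul_mem hx hy, ?_⟩
        have h1 : b * (x * y) * b⁻¹ = (b * x * b⁻¹) * (b * y * b⁻¹) := by group
        rw [h1, hx', hy', mul_inv_rev, hMab x⁻¹ (M.inv_mem hx) y⁻¹ (M.inv_mem hy)]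
      inv_mem' := by
        rintro x ⟨hx, hx'⟩
        refine ⟨M.inv_mem hx, ?_⟩
        have h1 : b * x⁻¹ * b⁻¹ = (b * x * b⁻¹)⁻¹ := by group
        rw [h1, hx'] }
  have hIM : I ≤ M := fun x hx => hx.1
  have hImem : ∀ x, x ∈ I ↔ x ∈ M ∧ b * x * b⁻¹ = x⁻¹ := fun x => Iff.rfl
  have hIne : I ≠ ⊥ := by
    push Not at hbM
    obtain ⟨m, hm, hbm⟩ := hbM
    intro hbot
    have hbmM : b * m * b⁻¹ ∈ M := hAM b hb m hm
    have hy : m * (b * m * b⁻¹)⁻¹ ∈ I := by
      rw [hImem]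
      refine ⟨M.mul_mem hm (M.inv_mem hbmM), ?_⟩
      have h1 : b * (m * (b * m * b⁻¹)⁻¹) * b⁻¹ = (b * m * b⁻¹) * (b * b) * m⁻¹ * (b⁻¹ * b⁻¹) := by
        group
      rw [h1, hb2, hb2', mul_one, mul_one, mul_inv_rev, inv_inv]
    rw [hbot, Subgroup.mem_bot] at hy
    apply hbm
    have h2 : m = b * m * b⁻¹ := mul_inv_eq_one.mp hy
    calc b * m = (b * m * b⁻¹) * b := by group
      _ = m * b := by rw [← h2]
  have hIinv : ConjInv A I := by
    intro a ha m hm
    rw [hImem] at hm ⊢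
    refine ⟨hAM a ha m hm.1, ?_⟩
    have h1 : b * (a * m * a⁻¹) * b⁻¹ = (b * a) * m * (b * a)⁻¹ := by group
    rw [h1, hAc b hb a ha]
    have h2 : (a * b) * m * (a * b)⁻¹ = a * (b * m * b⁻¹) * a⁻¹ := by group
    rw [h2, hm.2]; group
  obtain ⟨W, hWI, hWmin⟩ := exists_minimal_le_of_wellFoundedLT
    (fun W : Subgroup G => W ≠ ⊥ ∧ W ≤ I ∧ ConjInv A W) I ⟨hIne, le_refl _, hIinv⟩
  obtain ⟨⟨hWne, hWI', hWinv⟩, hWle⟩ := hWmin
  have hWM : W ≤ M := le_trans hWI' hIM
  have hdich : ∀ a ∈ A, (∀ w ∈ W, a * w * a⁻¹ = w) ∨ (∀ w ∈ W, a * w * a⁻¹ = w⁻¹) := by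
    intro a ha
    have ha2 := hA2 a ha
    have hainv := hAinv a ha
    have ha2' : a⁻¹ * a⁻¹ = 1 := by rw [hainv, ha2]
    set C : Subgroup G := W ⊓ Subgroup.centralizer {a} with hC
    have hCmem : ∀ x, x ∈ C ↔ x ∈ W ∧ a * x = x * a := by
      intro x
      rw [hC, Subgroup.mem_inf, Subgroup.mem_centralizer_iff]
      constructor
      · rintro ⟨h1, h2⟩
        exact ⟨h1, h2 a (Set.mem_singleton a)⟩
      · rintro ⟨h1, h2⟩
        refine ⟨h1, fun y hy => ?_⟩
        rw [Set.mem_singleton_iff] at hy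
        subst hy
        exact h2
    have hCinv : ConjInv A C := by
      intro a' ha' x hx
      rw [hCmem] at hx ⊢
      refine ⟨hWinv a' ha' x hx.1, ?_⟩
      calc a * (a' * x * a'⁻¹) = (a * a') * x * a'⁻¹ := by group
        _ = (a' * a) * x * a'⁻¹ := by rw [hAc a ha a' ha']
        _ = a' * (a * x) * a'⁻¹ := by group
        _ = a' * (x * a) * a'⁻¹ := by rw [hx.2]
        _ = a' * x * (a * a'⁻¹) := by group
        _ = a' * x * (a'⁻¹ * a) := by rw [hAc a ha a'⁻¹ (A.inv_mem ha')]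
        _ = a' * x * a'⁻¹ * a := by group
    by_cases hCbot : C = ⊥
    · right
      intro w hw
      have hv : w * (a * w * a⁻¹) ∈ C := by
        rw [hCmem]
        refine ⟨W.mul_mem hw (hWinv a ha w hw), ?_⟩
        have h1 : a * (w * (a * w * a⁻¹)) = (a * w * a⁻¹) * (a * a) * w * a⁻¹ := by group
        have h2 : w * (a * w * a⁻¹) * a = w * (a * w * a⁻¹) * (a * a) * a⁻¹ := by group
        rw [h1, h2, ha2, mul_one, mul_one,
          hMab (a * w * a⁻¹) (hWM (hWinv a ha w hw)) w (hWM hw)]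
      rw [hCbot, Subgroup.mem_bot] at hv
      exact (eq_inv_of_mul_eq_one_right hv)
    · left
      have hCW : W ≤ C := hWle ⟨hCbot, le_trans inf_le_left hWI', hCinv⟩ inf_le_left
      intro w hw
      have := ((hCmem w).mp (hCW hw)).2
      rw [this]; group
  obtain ⟨x, hxW, hx1⟩ : ∃ x ∈ W, x ≠ 1 := by
    by_contra h
    push Not at h
    exact hWne ((Subgroup.eq_bot_iff_forall W).mpr h)
  refine ⟨x, hWM hxW, hx1, fun a ha => ?_, ((hImem x).mp (hWI' hxW)).2⟩
  rcases hdich a ha with h | h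
  · exact Or.inl (h x hxW)
  · exact Or.inr (h x hxW)

/-- `A` acts faithfully on `M` by conjugation. -/
def FaithfulOn {G : Type*} [Group G] (A M : Subgroup G) : Prop :=
  ∀ a ∈ A, (∀ m ∈ M, a * m = m * a) → a = 1

theorem conjInv_map_le {G : Type*} [Group G] {T K : Subgroup G} (h : ConjInv T K) {g : G}
    (hg : g ∈ T) : K.map (MulAut.conj g).toMonoidHom ≤ K := by
  rintro _ ⟨k, hk, rfl⟩
  exact h g hg k hk

theorem conjInv_of_map_le {G : Type*} [Group G] {T K : Subgroup G}
    (h : ∀ g ∈ T, K.map (MulAut.conj g).toMonoidHom ≤ K) : ConjInv T K :=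
  fun g hg k hk => h g hg ⟨k, hk, rfl⟩

theorem conjInv_commutator {G : Type*} [Group G] {T K : Subgroup G} (h : ConjInv T K) :
    ConjInv T ⁅K, K⁆ := by
  apply conjInv_of_map_le
  intro g hg
  rw [Subgroup.map_commutator]
  exact Subgroup.commutator_mono (conjInv_map_le h hg) (conjInv_map_le h hg)

theorem conjInv_sup {G : Type*} [Group G] {T K₁ K₂ : Subgroup G} (h₁ : ConjInv T K₁)
    (h₂ : ConjInv T K₂) : ConjInv T (K₁ ⊔ K₂) := by
  apply conjInv_of_map_le
  intro g hg
  rw [Subgroup.map_sup]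
  exact sup_le_sup (conjInv_map_le h₁ hg) (conjInv_map_le h₂ hg)

theorem conjInv_inv {G : Type*} [Group G] {T K : Subgroup G} (h : ConjInv T K) {g : G}
    (hg : g ∈ T) {k : G} (hk : k ∈ K) : g⁻¹ * k * g ∈ K := by
  have := h g⁻¹ (T.inv_mem hg) k hk
  rwa [inv_inv] at this

theorem comm_sup {G : Type*} [Group G] {A B : Subgroup G}
    (hA : ∀ x ∈ A, ∀ y ∈ A, x * y = y * x) (hB : ∀ x ∈ B, ∀ y ∈ B, x * y = y * x)
    (h : ∀ a ∈ A, ∀ b ∈ B, a * b = b * a) : ∀ x ∈ A ⊔ B, ∀ y ∈ A ⊔ B, x * y = y * x := by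
  intro x hx y hy
  obtain ⟨a, ha, b, hb, rfl⟩ := mem_sup_of_commute A B h hx
  obtain ⟨a', ha', b', hb', rfl⟩ := mem_sup_of_commute A B h hy
  have h1 := h a' ha' b hb
  have h2 := hA a ha a' ha'
  have h3 := hB b hb b' hb'
  have h4 := h a ha b' hb'
  calc a * b * (a' * b') = a * (b * a') * b' := by group
    _ = a * (a' * b) * b' := by rw [h1]
    _ = (a * a') * (b * b') := by group
    _ = (a' * a) * (b' * b) := by rw [h2, h3]
    _ = a' * (a * b') * b := by group
    _ = a' * (b' * a) * b := by rw [h4]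
    _ = a' * b' * (a * b) := by group

theorem commutator_ne_self_of_solvable {G : Type*} [Group G] {L K : Subgroup G}
    (hL : Group.IsSolvable ↥L) (hKL : K ≤ L) (hne : K ≠ ⊥) : ⁅K, K⁆ ≠ K := by
  have hK : Group.IsSolvable ↥K :=
    Group.isSolvable_of_isSolvable_injective (Subgroup.inclusion_injective hKL)
  have hnt : Nontrivial ↥K := (Subgroup.nontrivial_iff_ne_bot K).mpr hne
  have h1 := Group.IsSolvable.commutator_lt_top_of_nontrivial ↥K
  intro h
  have h2 : commutator ↥K = ⊤ := by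
    apply Subgroup.map_injective K.subtype_injective
    rw [Subgroup.map_subtype_commutator, h, ← MonoidHom.range_eq_map, Subgroup.range_subtype]
  exact h1.ne h2

theorem no_involution_of_odd {G : Type*} [Group G] {L : Subgroup G} (hLodd : Odd (Nat.card ↥L))
    {m : G} (hm : m ∈ L) (h : m * m = 1) : m = 1 := by
  have h1 : orderOf m ∣ 2 := orderOf_dvd_of_pow_eq_one (by rw [pow_two]; exact h)
  have h2 : Odd (orderOf m) := Odd.of_dvd_nat hLodd (orderOf_dvd_card_of_mem hm)
  have h3 : orderOf m = 1 := by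
    rcases (Nat.dvd_prime Nat.prime_two).mp h1 with h | h
    · exact h
    · rw [h] at h2; exact absurd h2 (by decide)
  exact orderOf_eq_one_iff.mp h3

/-- An elementary abelian 2-group acting faithfully on a solvable group `L` of odd order acts
faithfully on some invariant abelian subgroup of `L`. -/
theorem exists_abelian_faithful {G : Type*} [Group G] [Finite G] (L A : Subgroup G)
    (hLs : Group.IsSolvable ↥L) (hLodd : Odd (Nat.card ↥L)) (hA : Cfsg.IsElementaryAbelian 2 A)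
    (hAL : ConjInv A L) (hf : FaithfulOn A L) :
    ∃ M : Subgroup G, M ≤ L ∧ ConjInv A M ∧ FaithfulOn A M ∧
      ∀ x ∈ M, ∀ y ∈ M, x * y = y * x := by
  obtain ⟨M, hML, hMmin⟩ := exists_minimal_le_of_wellFoundedLT
    (fun M : Subgroup G => M ≤ L ∧ ConjInv A M ∧ FaithfulOn A M) L ⟨le_refl _, hAL, hf⟩
  obtain ⟨⟨hML', hAM, hfM⟩, hMle⟩ := hMmin
  refine ⟨M, hML', hAM, hfM, ?_⟩
  by_contra hnab
  push Not at hnab
  obtain ⟨x₀, hx₀, y₀, hy₀, hxy₀⟩ := hnab
  have hA2 : ∀ a ∈ A, a * a = 1 := fun a ha => by rw [← pow_two]; exact hA.2 a ha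
  have hAc : ∀ a ∈ A, ∀ a' ∈ A, a * a' = a' * a := fun a ha a' ha' => isEA_comm hA ha ha'
  have hnoinv : ∀ m ∈ M, m * m = 1 → m = 1 := fun m hm h =>
    no_involution_of_odd hLodd (hML' hm) h
  have hoddM : ∀ m ∈ M, Odd (orderOf m) := fun m hm =>
    Odd.of_dvd_nat hLodd (orderOf_dvd_card_of_mem (hML' hm))
  have hMM : ConjInv M M := fun g hg k hk => M.mul_mem (M.mul_mem hg hk) (M.inv_mem hg)
  -- the centre of `M`
  set Z : Subgroup G := M ⊓ Subgroup.centralizer (M : Set G) with hZ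
  have hZmem : ∀ z, z ∈ Z ↔ z ∈ M ∧ ∀ m ∈ M, m * z = z * m := by
    intro z
    rw [hZ, Subgroup.mem_inf, Subgroup.mem_centralizer_iff]
    rfl
  have hZM : Z ≤ M := inf_le_left
  have hZc : ∀ z ∈ Z, ∀ m ∈ M, m * z = z * m := fun z hz => ((hZmem z).mp hz).2
  have hZMinv : ConjInv M Z := by
    intro m hm z hz
    have : m * z * m⁻¹ = z := by rw [hZc z hz m hm]; group
    rw [this]; exact hz
  have hZAinv : ConjInv A Z := by
    intro a ha z hz
    rw [hZmem]
    refine ⟨hAM a ha z (hZM hz), fun m hm => ?_⟩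
    have h1 : a⁻¹ * m * a ∈ M := conjInv_inv hAM ha hm
    have h2 := hZc z hz _ h1
    calc m * (a * z * a⁻¹) = a * ((a⁻¹ * m * a) * z) * a⁻¹ := by group
      _ = a * (z * (a⁻¹ * m * a)) * a⁻¹ := by rw [h2]
      _ = a * z * a⁻¹ * m := by group
  -- Step 1
  have step1 : ∀ N : Subgroup G, N ≤ M → ConjInv M N → ConjInv A N →
      M ≤ N ⊔ (M ⊓ Subgroup.centralizer (N : Set G)) := by
    intro N hNM hMN hAN
    have hNC : ∀ n ∈ N, ∀ c ∈ M ⊓ Subgroup.centralizer (N : Set G), n * c = c * n := by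
      intro n hn c hc
      have hc2 : c ∈ Subgroup.centralizer (N : Set G) := hc.2
      rw [Subgroup.mem_centralizer_iff] at hc2
      exact hc2 n hn
    have hCinv : ConjInv A (M ⊓ Subgroup.centralizer (N : Set G)) := by
      intro a ha c hc
      refine ⟨hAM a ha c hc.1, ?_⟩
      change a * c * a⁻¹ ∈ Subgroup.centralizer (N : Set G)
      rw [Subgroup.mem_centralizer_iff]
      intro n hn
      have h1 : a⁻¹ * n * a ∈ N := conjInv_inv hAN ha hn
      have h2 := hNC _ h1 c hc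
      calc n * (a * c * a⁻¹) = a * ((a⁻¹ * n * a) * c) * a⁻¹ := by group
        _ = a * (c * (a⁻¹ * n * a)) * a⁻¹ := by rw [h2]
        _ = a * c * a⁻¹ * n := by group
    have hle : N ⊔ (M ⊓ Subgroup.centralizer (N : Set G)) ≤ M := sup_le hNM inf_le_left
    apply hMle ⟨le_trans hle hML', conjInv_sup hAN hCinv, ?_⟩ hle
    intro a ha hcomm
    apply hfM a ha
    apply comm_of_comm_normal_centralizer M N a hMN (hAM a ha) hnoinv (hA2 a ha)
    · intro n hn
      exact hcomm n (Subgroup.mem_sup_left hn)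
    · intro c hcM hcN
      apply hcomm c
      apply Subgroup.mem_sup_right
      refine ⟨hcM, ?_⟩
      change c ∈ Subgroup.centralizer (N : Set G)
      rw [Subgroup.mem_centralizer_iff]
      intro n hn
      exact (hcN n hn).symm
  have step1' : ∀ N : Subgroup G, N ≤ M → ConjInv M N → ConjInv A N →
      (∀ x ∈ N, ∀ y ∈ N, x * y = y * x) → N ≤ Z := by
    intro N hNM hMN hAN hab
    have h1 := step1 N hNM hMN hAN
    have h2 : N ≤ M ⊓ Subgroup.centralizer (N : Set G) := by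
      intro n hn
      refine ⟨hNM hn, ?_⟩
      change n ∈ Subgroup.centralizer (N : Set G)
      rw [Subgroup.mem_centralizer_iff]
      intro n' hn'
      exact hab n' hn' n hn
    rw [sup_eq_right.mpr h2] at h1
    intro n hn
    rw [hZmem]
    refine ⟨hNM hn, fun m hm => ?_⟩
    have h3 : m ∈ Subgroup.centralizer (N : Set G) := (h1 hm).2
    rw [Subgroup.mem_centralizer_iff] at h3
    exact (h3 n hn).symm
  -- Step 2
  have hMZ : ¬ M ≤ Z := by
    intro h
    exact hxy₀ ((hZc y₀ (h hy₀) x₀ hx₀))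
  obtain ⟨K, -, hKmin⟩ := exists_minimal_le_of_wellFoundedLT
    (fun K : Subgroup G => K ≤ M ∧ ConjInv M K ∧ ConjInv A K ∧ ¬ K ≤ Z) M
    ⟨le_refl _, hMM, hAM, hMZ⟩
  obtain ⟨⟨hKM, hMK, hAK, hKZ⟩, hKle⟩ := hKmin
  have hKne : K ≠ ⊥ := by
    rintro rfl
    exact hKZ bot_le
  have hKK : ⁅K, K⁆ ≤ Z := by
    by_contra h
    have h1 : K ≤ ⁅K, K⁆ := hKle ⟨le_trans (Subgroup.commutator_le_self K) hKM,
      conjInv_commutator hMK, conjInv_commutator hAK, h⟩ (Subgroup.commutator_le_self K)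
    exact commutator_ne_self_of_solvable hLs (le_trans hKM hML') hKne
      (le_antisymm (Subgroup.commutator_le_self K) h1)
  -- Step 3
  have hKMZ : ∀ k ∈ K, ∀ m ∈ M, m * k * m⁻¹ * k⁻¹ ∈ Z := by
    intro k hk m hm
    have h1 := step1 K hKM hMK hAK hm
    have hKC : ∀ n ∈ K, ∀ c ∈ M ⊓ Subgroup.centralizer (K : Set G), n * c = c * n := by
      intro n hn c hc
      have hc2 : c ∈ Subgroup.centralizer (K : Set G) := hc.2
      rw [Subgroup.mem_centralizer_iff] at hc2
      exact hc2 n hn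
    obtain ⟨k', hk', c, hc, rfl⟩ := mem_sup_of_commute K _ hKC h1
    have h2 := hKC k hk c hc
    have h3 : k' * c * k * (k' * c)⁻¹ * k⁻¹ = k' * k * k'⁻¹ * k⁻¹ := by
      calc k' * c * k * (k' * c)⁻¹ * k⁻¹ = k' * (c * k) * c⁻¹ * k'⁻¹ * k⁻¹ := by group
        _ = k' * (k * c) * c⁻¹ * k'⁻¹ * k⁻¹ := by rw [h2]
        _ = k' * k * k'⁻¹ * k⁻¹ := by group
    rw [h3]
    exact hKK (Subgroup.commutator_mem_commutator hk' hk)
  -- Step 4
  have hKZc : ∀ k ∈ K, ∀ z ∈ Z, k * z = z * k := fun k hk z hz => hZc z hz k (hKM hk)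
  have hKZM : K ⊔ Z ≤ M := sup_le hKM hZM
  obtain ⟨N, hNKZ, hNmin⟩ := exists_minimal_le_of_wellFoundedLT
    (fun N : Subgroup G => Z ≤ N ∧ N ≤ K ⊔ Z ∧ ConjInv A N ∧ N ≠ Z) (K ⊔ Z)
    ⟨le_sup_right, le_refl _, conjInv_sup hAK hZAinv, fun h => hKZ (h ▸ le_sup_left)⟩
  obtain ⟨⟨hZN, -, hAN, hNZ⟩, hNle⟩ := hNmin
  have hNM : N ≤ M := le_trans hNKZ hKZM
  have hαN : ∀ n ∈ N, ∀ m ∈ M, m * n * m⁻¹ * n⁻¹ ∈ Z := by
    intro n hn m hm
    obtain ⟨k, hk, z, hz, rfl⟩ := mem_sup_of_commute K Z hKZc (hNKZ hn)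
    have h1 := hZc z hz m⁻¹ (M.inv_mem hm)
    have h2 : m * (k * z) * m⁻¹ * (k * z)⁻¹ = m * k * m⁻¹ * k⁻¹ := by
      calc m * (k * z) * m⁻¹ * (k * z)⁻¹ = m * k * (z * m⁻¹) * z⁻¹ * k⁻¹ := by group
        _ = m * k * (m⁻¹ * z) * z⁻¹ * k⁻¹ := by rw [h1]
        _ = m * k * m⁻¹ * k⁻¹ := by group
    rw [h2]
    exact hKMZ k hk m hm
  have hMN : ConjInv M N := by
    intro m hm n hn
    have h1 : m * n * m⁻¹ = (m * n * m⁻¹ * n⁻¹) * n := by group
    rw [h1]
    exact N.mul_mem (hZN (hαN n hn m hm)) hn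
  have hβ : ∀ b ∈ A, (∀ n ∈ N, ∃ z ∈ Z, b * n * b⁻¹ = n * z) ∨
      (∀ n ∈ N, ∃ z ∈ Z, b * n * b⁻¹ = n⁻¹ * z) := by
    intro b hb
    have hCbinv : ConjInv A (N ⊓ Subgroup.centralizer {b}) := by
      intro a ha x hx
      refine ⟨hAN a ha x hx.1, ?_⟩
      change a * x * a⁻¹ ∈ Subgroup.centralizer {b}
      have hx2 : x ∈ Subgroup.centralizer {b} := hx.2
      rw [Subgroup.mem_centralizer_iff] at hx2 ⊢
      intro y hy
      rw [Set.mem_singleton_iff] at hy
      subst hy
      have h1 := hx2 y (Set.mem_singleton y)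
      calc y * (a * x * a⁻¹) = (y * a) * x * a⁻¹ := by group
        _ = (a * y) * x * a⁻¹ := by rw [hAc y hb a ha]
        _ = a * (y * x) * a⁻¹ := by group
        _ = a * (x * y) * a⁻¹ := by rw [h1]
        _ = a * x * (y * a⁻¹) := by group
        _ = a * x * (a⁻¹ * y) := by rw [hAc y hb a⁻¹ (A.inv_mem ha)]
        _ = a * x * a⁻¹ * y := by group
    by_cases hNbZ : (N ⊓ Subgroup.centralizer {b}) ⊔ Z = Z
    · right
      have hfix : ∀ c ∈ N, b * c = c * b → c ∈ Z := by
        intro c hc hbc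
        rw [← hNbZ]
        apply Subgroup.mem_sup_left
        refine ⟨hc, ?_⟩
        change c ∈ Subgroup.centralizer {b}
        rw [Subgroup.mem_centralizer_iff]
        intro y hy
        rw [Set.mem_singleton_iff] at hy
        subst hy
        exact hbc
      have h1 := mul_conj_mem_of_fixed_le N Z b (hA2 b hb) (hAN b hb)
        (fun n hn n' hn' => hαN n' hn' n (hNM hn)) hZN (fun z hz => hoddM z (hZM hz)) hfix
      intro n hn
      exact ⟨n * (b * n * b⁻¹), h1 n hn, by group⟩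
    · left
      have hle : N ≤ (N ⊓ Subgroup.centralizer {b}) ⊔ Z :=
        hNle ⟨le_sup_right, le_trans (sup_le inf_le_left hZN) hNKZ, conjInv_sup hCbinv hZAinv,
          hNbZ⟩ (sup_le inf_le_left hZN)
      intro n hn
      have hcz : ∀ c ∈ N ⊓ Subgroup.centralizer {b}, ∀ z ∈ Z, c * z = z * c :=
        fun c hc z hz => hZc z hz c (hNM hc.1)
      obtain ⟨c, hc, z, hz, rfl⟩ := mem_sup_of_commute _ Z hcz (hle hn)
      have hc2 : c ∈ Subgroup.centralizer {b} := hc.2
      rw [Subgroup.mem_centralizer_iff] at hc2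
      have h1 := hc2 b (Set.mem_singleton b)
      refine ⟨z⁻¹ * (b * z * b⁻¹), Z.mul_mem (Z.inv_mem hz) (hZAinv b hb z hz), ?_⟩
      calc b * (c * z) * b⁻¹ = (b * c) * z * b⁻¹ := by group
        _ = (c * b) * z * b⁻¹ := by rw [h1]
        _ = c * z * (z⁻¹ * (b * z * b⁻¹)) := by group
  -- `N` is generated by one element modulo `Z`
  obtain ⟨u, huN, huZ⟩ : ∃ u ∈ N, u ∉ Z := by
    by_contra h
    push Not at h
    exact hNZ (le_antisymm h hZN)
  have huz : ∀ c ∈ Subgroup.zpowers u, ∀ z ∈ Z, c * z = z * c :=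
    fun c hc z hz => hZc z hz c (hNM ((Subgroup.zpowers_le.mpr huN) hc))
  have hN'le : Subgroup.zpowers u ⊔ Z ≤ N := sup_le (Subgroup.zpowers_le.mpr huN) hZN
  have hN'inv : ConjInv A (Subgroup.zpowers u ⊔ Z) := by
    intro a ha x hx
    obtain ⟨c, hc, z, hz, rfl⟩ := mem_sup_of_commute _ Z huz hx
    obtain ⟨i, rfl⟩ := Subgroup.mem_zpowers_iff.mp hc
    have h1 : a * (u ^ i * z) * a⁻¹ = (a * u * a⁻¹) ^ i * (a * z * a⁻¹) := by
      rw [conj_zpow]; group
    rw [h1]
    have h2 : a * u * a⁻¹ ∈ Subgroup.zpowers u ⊔ Z := by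
      rcases hβ a ha with h | h
      · obtain ⟨z', hz', h3⟩ := h u huN
        rw [h3]
        exact Subgroup.mul_mem _ (Subgroup.mem_sup_left (Subgroup.mem_zpowers u))
          (Subgroup.mem_sup_right hz')
      · obtain ⟨z', hz', h3⟩ := h u huN
        rw [h3]
        exact Subgroup.mul_mem _ (Subgroup.mem_sup_left
          (Subgroup.inv_mem _ (Subgroup.mem_zpowers u))) (Subgroup.mem_sup_right hz')
    exact Subgroup.mul_mem _ (Subgroup.zpow_mem _ h2 i)
      (Subgroup.mem_sup_right (hZAinv a ha z hz))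
  have hNN' : N ≤ Subgroup.zpowers u ⊔ Z :=
    hNle ⟨le_sup_right, le_trans hN'le hNKZ, hN'inv,
      fun h => huZ (h ▸ Subgroup.mem_sup_left (Subgroup.mem_zpowers u))⟩ hN'le
  have hN'ab : ∀ x ∈ Subgroup.zpowers u ⊔ Z, ∀ y ∈ Subgroup.zpowers u ⊔ Z, x * y = y * x := by
    apply comm_sup _ _ huz
    · intro x hx y hy
      obtain ⟨i, rfl⟩ := Subgroup.mem_zpowers_iff.mp hx
      obtain ⟨j, rfl⟩ := Subgroup.mem_zpowers_iff.mp hy
      rw [← zpow_add, ← zpow_add, add_comm]
    · intro x hx y hy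
      exact hZc y hy x (hZM hx)
  have hNab : ∀ x ∈ N, ∀ y ∈ N, x * y = y * x :=
    fun x hx y hy => hN'ab x (hNN' hx) y (hNN' hy)
  exact hNZ (le_antisymm (step1' N hNM hMN hAN hNab) hZN)

/-- An elementary abelian 2-group of order `2 ^ d` acting faithfully on an abelian group `M`
without involutions has a "dual basis": `a i` inverts `x i` and centralises `x j` for `j ≠ i`. -/
theorem exists_eigen_basis {G : Type*} [Group G] [Finite G] (M A : Subgroup G)
    (hA : Cfsg.IsElementaryAbelian 2 A) (d : ℕ) (hAd : Nat.card ↥A = 2 ^ d)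
    (hAM : ConjInv A M) (hfM : FaithfulOn A M)
    (hMab : ∀ x ∈ M, ∀ y ∈ M, x * y = y * x) (hnoinv : ∀ m ∈ M, m * m = 1 → m = 1) :
    ∃ (x a : Fin d → G), (∀ i, x i ∈ M ∧ x i ≠ 1 ∧ a i ∈ A ∧ a i * x i * (a i)⁻¹ = (x i)⁻¹) ∧
      (∀ i j, i ≠ j → a i * x j = x j * a i) ∧
      (∀ b ∈ A, b ∈ Subgroup.closure (Set.range a)) := by
  classical
  have := Fintype.ofFinite G
  have hA2 : ∀ a ∈ A, a * a = 1 := fun a ha => by rw [← pow_two]; exact hA.2 a ha
  have hAinv : ∀ a ∈ A, a⁻¹ = a := fun a ha => inv_eq_of_mul_eq_one_left (hA2 a ha)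
  have hAc : ∀ a ∈ A, ∀ a' ∈ A, a * a' = a' * a := fun a ha a' ha' => isEA_comm hA ha ha'
  -- eigenvectors
  let X : Finset G := Finset.univ.filter
    (fun x => x ∈ M ∧ x ≠ 1 ∧ ∀ a ∈ A, a * x * a⁻¹ = x ∨ a * x * a⁻¹ = x⁻¹)
  have hXmem : ∀ x, x ∈ X ↔ x ∈ M ∧ x ≠ 1 ∧ ∀ a ∈ A, a * x * a⁻¹ = x ∨ a * x * a⁻¹ = x⁻¹ := by
    intro x
    simp [X]
  have hne_inv : ∀ x ∈ M, x ≠ 1 → x ≠ x⁻¹ := by
    intro x hx hx1 h
    apply hx1
    apply hnoinv x hx
    nth_rewrite 2 [h]
    exact mul_inv_cancel x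
  have hΦX : ∀ b ∈ A, (∀ y ∈ X, b * y = y * b) → b = 1 := by
    intro b hb hcomm
    by_contra hb1
    have hbM : ¬ ∀ m ∈ M, b * m = m * b := fun h => hb1 (hfM b hb h)
    obtain ⟨x, hxM, hx1, hxe, hbx⟩ := exists_eigen_of_abelian M A hA hAM hMab b hb hbM
    have h1 := hcomm x ((hXmem x).mpr ⟨hxM, hx1, hxe⟩)
    have h2 : b * x * b⁻¹ = x := by rw [h1]; group
    rw [h2] at hbx
    exact hne_inv x hxM hx1 hbx
  obtain ⟨Y, hYX, hYmin⟩ := exists_minimal_le_of_wellFoundedLT
    (fun Y : Finset G => ∀ b ∈ A, (∀ y ∈ Y, b * y = y * b) → b = 1) X hΦX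
  obtain ⟨hΦY, hYle⟩ := hYmin
  have hYmem : ∀ y ∈ Y, y ∈ M ∧ y ≠ 1 ∧ ∀ a ∈ A, a * y * a⁻¹ = y ∨ a * y * a⁻¹ = y⁻¹ :=
    fun y hy => (hXmem y).mp (hYX hy)
  -- an element of `A` not commuting with `y` inverts it
  have hinvY : ∀ y ∈ Y, ∀ a ∈ A, a * y ≠ y * a → a * y * a⁻¹ = y⁻¹ := by
    intro y hy a ha hne
    rcases (hYmem y hy).2.2 a ha with h | h
    · exfalso
      apply hne
      calc a * y = (a * y * a⁻¹) * a := by group
        _ = y * a := by rw [h]
    · exact h
  have hex : ∀ y ∈ Y, ∃ a, a ∈ A ∧ (∀ y' ∈ Y, y' ≠ y → a * y' = y' * a) ∧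
      a * y * a⁻¹ = y⁻¹ := by
    intro y hy
    have h1 : ¬ ∀ b ∈ A, (∀ y' ∈ Y.erase y, b * y' = y' * b) → b = 1 := by
      intro h
      have h2 := hYle h (Finset.erase_subset y Y) hy
      exact (Finset.notMem_erase y Y) h2
    push Not at h1
    obtain ⟨a, ha, hcomm, ha1⟩ := h1
    refine ⟨a, ha, fun y' hy' hne => hcomm y' (Finset.mem_erase.mpr ⟨hne, hy'⟩), ?_⟩
    apply hinvY y hy a ha
    intro h
    apply ha1
    apply hΦY a ha
    intro y' hy'
    by_cases hyy : y' = y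
    · rw [hyy]; exact h
    · exact hcomm y' (Finset.mem_erase.mpr ⟨hyy, hy'⟩)
  choose! α hα using hex
  -- realisation of subsets
  have hR : ∀ S : Finset G, S ⊆ Y → ∃ b ∈ A, b ∈ Subgroup.closure (α '' (Y : Set G)) ∧
      ∀ y ∈ Y, (b * y ≠ y * b ↔ y ∈ S) := by
    intro S
    induction S using Finset.induction_on with
    | empty =>
      intro _
      exact ⟨1, A.one_mem, Subgroup.one_mem _, fun y _ => by simp⟩
    | insert s S' hs ih =>
      intro hsub
      have hsY : s ∈ Y := hsub (Finset.mem_insert_self s S')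
      obtain ⟨b', hb'A, hb'cl, hb'⟩ := ih (fun y hy => hsub (Finset.mem_insert_of_mem hy))
      obtain ⟨hαA, hαc, hαs⟩ := hα s hsY
      refine ⟨α s * b', A.mul_mem hαA hb'A,
        Subgroup.mul_mem _ (Subgroup.subset_closure ⟨s, hsY, rfl⟩) hb'cl, fun y hy => ?_⟩
      by_cases hys : y = s
      · subst hys
        have h1 : b' * y = y * b' := by
          by_contra h
          exact hs ((hb' y hy).mp h)
        have h2 : α y * y = y⁻¹ * α y := by
          calc α y * y = (α y * y * (α y)⁻¹) * α y := by group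
            _ = y⁻¹ * α y := by rw [hαs]
        constructor
        · intro _
          exact Finset.mem_insert_self y S'
        · intro _ h
          have h3 : α y * b' * y = y⁻¹ * (α y * b') := by
            calc α y * b' * y = α y * (b' * y) := by group
              _ = α y * (y * b') := by rw [h1]
              _ = (α y * y) * b' := by group
              _ = y⁻¹ * (α y * b') := by rw [h2]; group
          rw [h3] at h
          exact hne_inv y (hYmem y hy).1 (hYmem y hy).2.1 (mul_right_cancel h).symm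
      · have h1 := hαc y hy hys
        have h2 : α s * b' * y = y * (α s * b') ↔ b' * y = y * b' := by
          constructor
          · intro h
            have h3 : α s * (b' * y) = α s * (y * b') := by
              calc α s * (b' * y) = α s * b' * y := by group
                _ = y * (α s * b') := h
                _ = (y * α s) * b' := by group
                _ = (α s * y) * b' := by rw [h1]
                _ = α s * (y * b') := by group
            exact mul_left_cancel h3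
          · intro h
            calc α s * b' * y = α s * (b' * y) := by group
              _ = α s * (y * b') := by rw [h]
              _ = (α s * y) * b' := by group
              _ = (y * α s) * b' := by rw [h1]
              _ = y * (α s * b') := by group
        rw [Ne, h2, Finset.mem_insert]
        constructor
        · intro h
          exact Or.inr ((hb' y hy).mp h)
        · rintro (h | h)
          · exact absurd h hys
          · exact (hb' y hy).mpr h
  -- injectivity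
  have hinj : ∀ b ∈ A, ∀ b' ∈ A, (∀ y ∈ Y, (b * y = y * b ↔ b' * y = y * b')) → b = b' := by
    intro b hb b' hb' h
    have h1 : b * b' = 1 := by
      apply hΦY (b * b') (A.mul_mem hb hb')
      intro y hy
      by_cases hby : b * y = y * b
      · have hb'y := (h y hy).mp hby
        calc b * b' * y = b * (b' * y) := by group
          _ = b * (y * b') := by rw [hb'y]
          _ = (b * y) * b' := by group
          _ = (y * b) * b' := by rw [hby]
          _ = y * (b * b') := by group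
      · have hb'y : b' * y ≠ y * b' := fun h' => hby ((h y hy).mpr h')
        have e1 := hinvY y hy b hb hby
        have e2 := hinvY y hy b' hb' hb'y
        have e3 : (b * b') * y * (b * b')⁻¹ = y := by
          calc (b * b') * y * (b * b')⁻¹ = b * (b' * y * b'⁻¹) * b⁻¹ := by group
            _ = b * y⁻¹ * b⁻¹ := by rw [e2]
            _ = (b * y * b⁻¹)⁻¹ := by group
            _ = y := by rw [e1, inv_inv]
        calc b * b' * y = ((b * b') * y * (b * b')⁻¹) * (b * b') := by group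
          _ = y * (b * b') := by rw [e3]
    calc b = b * (b' * b') := by rw [hA2 b' hb', mul_one]
      _ = (b * b') * b' := by group
      _ = b' := by rw [h1, one_mul]
  -- counting
  have hcard : Y.card = d := by
    have hbij : Function.Bijective (fun b : ↥A =>
        (⟨Y.filter (fun y => (b : G) * y ≠ y * (b : G)),
          Finset.mem_powerset.mpr (Finset.filter_subset _ _)⟩ : ↥(Y.powerset))) := by
      constructor
      · rintro ⟨b, hb⟩ ⟨b', hb'⟩ hbb
        apply Subtype.ext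
        apply hinj b hb b' hb'
        intro y hy
        have h1 := congrArg Subtype.val hbb
        have h2 : y ∈ Y.filter (fun y => b * y ≠ y * b) ↔
            y ∈ Y.filter (fun y => b' * y ≠ y * b') := by
          have h3 : Y.filter (fun y => b * y ≠ y * b) = Y.filter (fun y => b' * y ≠ y * b') := h1
          rw [h3]
        rw [Finset.mem_filter, Finset.mem_filter] at h2
        constructor
        · intro h
          by_contra h'
          exact (h2.mpr ⟨hy, h'⟩).2 h
        · intro h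
          by_contra h'
          exact (h2.mp ⟨hy, h'⟩).2 h
      · rintro ⟨S, hS⟩
        rw [Finset.mem_powerset] at hS
        obtain ⟨b, hbA, -, hb⟩ := hR S hS
        refine ⟨⟨b, hbA⟩, ?_⟩
        apply Subtype.ext
        ext y
        change y ∈ Y.filter (fun y => b * y ≠ y * b) ↔ y ∈ S
        rw [Finset.mem_filter]
        constructor
        · rintro ⟨hy, h⟩
          exact (hb y hy).mp h
        · intro hy
          exact ⟨hS hy, (hb y (hS hy)).mpr hy⟩
    have h1 : Nat.card ↥A = Nat.card ↥(Y.powerset) := Nat.card_eq_of_bijective _ hbij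
    rw [hAd, Nat.card_eq_fintype_card, Fintype.card_coe, Finset.card_powerset] at h1
    exact (Nat.pow_right_injective (le_refl 2) h1).symm
  let e : ↥Y ≃ Fin d := Fintype.equivFinOfCardEq (by rw [Fintype.card_coe]; exact hcard)
  refine ⟨fun i => ((e.symm i : ↥Y) : G), fun i => α ((e.symm i : ↥Y) : G), ?_, ?_, ?_⟩
  · intro i
    have hy := (e.symm i).2
    obtain ⟨hαA, -, hαs⟩ := hα _ hy
    exact ⟨(hYmem _ hy).1, (hYmem _ hy).2.1, hαA, hαs⟩
  · intro i j hij
    have hyi := (e.symm i).2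
    have hyj := (e.symm j).2
    obtain ⟨-, hαc, -⟩ := hα _ hyi
    apply hαc _ hyj
    intro h
    apply hij
    have : e.symm j = e.symm i := Subtype.ext h
    exact (e.symm.injective this).symm
  · intro b hb
    obtain ⟨b₀, hb₀A, hb₀cl, hb₀⟩ := hR (Y.filter (fun y => b * y ≠ y * b))
      (Finset.filter_subset _ _)
    have hbb : b = b₀ := by
      apply hinj b hb b₀ hb₀A
      intro y hy
      have h1 := hb₀ y hy
      rw [Finset.mem_filter] at h1
      constructor
      · intro h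
        by_contra h'
        exact (h1.mp h').2 h
      · intro h
        by_contra h'
        exact (h1.mpr ⟨hy, h'⟩) h
    rw [hbb]
    refine (Subgroup.closure_mono ?_) hb₀cl
    rintro _ ⟨y, hy, rfl⟩
    refine ⟨e ⟨y, hy⟩, ?_⟩
    change α ((e.symm (e ⟨y, hy⟩) : ↥Y) : G) = α y
    rw [Equiv.symm_apply_apply]

theorem comm_of_gens {G : Type*} [Group G] {a x b y : G} (h1 : a * b = b * a)
    (h2 : a * y = y * a) (h3 : x * b = b * x) (h4 : x * y = y * x) :
    ∀ u ∈ Subgroup.zpowers a ⊔ Subgroup.zpowers x,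
      ∀ v ∈ Subgroup.zpowers b ⊔ Subgroup.zpowers y, u * v = v * u := by
  have key : ∀ g : G, g * b = b * g → g * y = y * g →
      ∀ v ∈ Subgroup.zpowers b ⊔ Subgroup.zpowers y, g * v = v * g := by
    intro g hb hy v hv
    have hle : Subgroup.zpowers b ⊔ Subgroup.zpowers y ≤ Subgroup.centralizer {g} := by
      apply sup_le
      · rw [Subgroup.zpowers_le, Subgroup.mem_centralizer_iff]
        intro h hh
        rw [Set.mem_singleton_iff] at hh
        subst hh
        exact hb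
      · rw [Subgroup.zpowers_le, Subgroup.mem_centralizer_iff]
        intro h hh
        rw [Set.mem_singleton_iff] at hh
        subst hh
        exact hy
    have h5 := hle hv
    rw [Subgroup.mem_centralizer_iff] at h5
    exact h5 g (Set.mem_singleton g)
  intro u hu v hv
  have hle : Subgroup.zpowers a ⊔ Subgroup.zpowers x ≤
      Subgroup.centralizer ((Subgroup.zpowers b ⊔ Subgroup.zpowers y : Subgroup G) : Set G) := by
    apply sup_le
    · rw [Subgroup.zpowers_le, Subgroup.mem_centralizer_iff]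
      intro w hw
      exact (key a h1 h2 w hw).symm
    · rw [Subgroup.zpowers_le, Subgroup.mem_centralizer_iff]
      intro w hw
      exact (key x h3 h4 w hw).symm
  have h5 := hle hu
  rw [Subgroup.mem_centralizer_iff] at h5
  exact (h5 v hv).symm

/-- An involution `a` inverting an element `x ≠ 1` without square roots of unity generates with it
a dihedral group. -/
theorem nonempty_dihedral_of_inverts {G : Type*} [Group G] {a x : G} (ha : a * a = 1)
    (hax : a * x * a⁻¹ = x⁻¹) (hx : x * x ≠ 1) :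
    Nonempty (↥(Subgroup.zpowers a ⊔ Subgroup.zpowers x) ≃*
      DihedralGroup (orderOf (a * (a * x)))) := by
  have hainv : a⁻¹ = a := inv_eq_of_mul_eq_one_left ha
  have hx1 : x ≠ 1 := by
    rintro rfl
    exact hx (one_mul 1)
  have ha1 : a ≠ 1 := by
    rintro rfl
    apply hx
    have : x = x⁻¹ := by simpa using hax
    nth_rewrite 2 [this]
    exact mul_inv_cancel x
  have h1 : a * x = x⁻¹ * a := by
    calc a * x = (a * x * a⁻¹) * a := by group
      _ = x⁻¹ * a := by rw [hax]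
  have hax2 : (a * x) * (a * x) = 1 := by
    calc (a * x) * (a * x) = (a * x) * a * x := by group
      _ = (x⁻¹ * a) * a * x := by rw [h1]
      _ = x⁻¹ * (a * a) * x := by group
      _ = 1 := by rw [ha]; group
  have hax1 : a * x ≠ 1 := by
    intro h
    apply hx
    have h2 : x = a⁻¹ := by
      calc x = a⁻¹ * (a * x) := by group
        _ = a⁻¹ := by rw [h, mul_one]
    rw [h2, hainv, ha]
  have hoa : orderOf a = 2 := Cfsg.Agent.Lib.Helper4.orderOf_two_of_mul_self ha ha1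
  have hoax : orderOf (a * x) = 2 := Cfsg.Agent.Lib.Helper4.orderOf_two_of_mul_self hax2 hax1
  have hcl : Subgroup.zpowers a ⊔ Subgroup.zpowers x = Subgroup.closure ({a, a * x} : Set G) := by
    apply le_antisymm
    · apply sup_le
      · rw [Subgroup.zpowers_le]
        exact Subgroup.subset_closure (Set.mem_insert _ _)
      · rw [Subgroup.zpowers_le]
        have h3 : a⁻¹ * (a * x) ∈ Subgroup.closure ({a, a * x} : Set G) :=
          Subgroup.mul_mem _ (Subgroup.inv_mem _ (Subgroup.subset_closure (Set.mem_insert _ _)))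
            (Subgroup.subset_closure (Set.mem_insert_of_mem _ (Set.mem_singleton _)))
        have h2 : a⁻¹ * (a * x) = x := by group
        rwa [h2] at h3
    · rw [Subgroup.closure_le]
      rintro z (rfl | hz)
      · exact Subgroup.mem_sup_left (Subgroup.mem_zpowers _)
      · rw [Set.mem_singleton_iff] at hz
        subst hz
        exact Subgroup.mul_mem _ (Subgroup.mem_sup_left (Subgroup.mem_zpowers _))
          (Subgroup.mem_sup_right (Subgroup.mem_zpowers _))
  exact ⟨(MulEquiv.subgroupCongr hcl).trans (Cfsg.Agent.Lib.Helper4.dihEquiv a (a * x) hoa hoax)⟩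

/-- **Thompson's dihedral lemma.** -/
theorem thompson_dihedral {G : Type*} [Group G] [Finite G] (L A : Subgroup G)
    (hLs : Group.IsSolvable ↥L) (hLodd : Odd (Nat.card ↥L))
    (hA : Cfsg.IsElementaryAbelian 2 A) (d : ℕ) (hAd : Nat.card ↥A = 2 ^ d)
    (hAL : A ≤ Subgroup.normalizer (L : Set G))
    (hfaith : A ⊓ Subgroup.centralizer (L : Set G) = ⊥) :
    ∃ (Ai : Fin d → Subgroup G) (Li : Fin d → Subgroup G) (n : Fin d → ℕ),
      (∀ i, Ai i ≤ A ∧ Nat.card ↥(Ai i) = 2 ∧ Li i ≤ L ∧ Odd (n i) ∧ 3 ≤ n i ∧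
        Nonempty (↥(Ai i ⊔ Li i) ≃* DihedralGroup (n i))) ∧ (⨆ i, Ai i) = A ∧
      ∀ i j, i ≠ j → ∀ x ∈ Ai i ⊔ Li i, ∀ y ∈ Ai j ⊔ Li j, x * y = y * x := by
  have hALinv : ConjInv A L := by
    intro a ha l hl
    exact (Subgroup.mem_normalizer_iff.mp (hAL ha) l).mp hl
  have hf : FaithfulOn A L := by
    intro a ha hcomm
    have h1 : a ∈ A ⊓ Subgroup.centralizer (L : Set G) := by
      refine ⟨ha, ?_⟩
      change a ∈ Subgroup.centralizer (L : Set G)
      rw [Subgroup.mem_centralizer_iff]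
      intro l hl
      exact (hcomm l hl).symm
    rw [hfaith, Subgroup.mem_bot] at h1
    exact h1
  obtain ⟨M, hML, hAM, hfM, hMab⟩ := exists_abelian_faithful L A hLs hLodd hA hALinv hf
  have hnoinv : ∀ m ∈ M, m * m = 1 → m = 1 := fun m hm h =>
    no_involution_of_odd hLodd (hML hm) h
  obtain ⟨x, a, hxa, hcomm, hgen⟩ := exists_eigen_basis M A hA d hAd hAM hfM hMab hnoinv
  have hA2 : ∀ a ∈ A, a * a = 1 := fun a ha => by rw [← pow_two]; exact hA.2 a ha
  refine ⟨fun i => Subgroup.zpowers (a i), fun i => Subgroup.zpowers (x i),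
    fun i => orderOf (a i * (a i * x i)), ?_, ?_, ?_⟩
  · intro i
    obtain ⟨hxM, hx1, haA, hinv⟩ := hxa i
    have ha2 := hA2 (a i) haA
    have hxx : x i * x i ≠ 1 := fun h => hx1 (hnoinv _ hxM h)
    have ha1 : a i ≠ 1 := by
      intro h
      rw [h] at hinv
      apply hxx
      have h2 : x i = (x i)⁻¹ := by simpa using hinv
      nth_rewrite 2 [h2]
      exact mul_inv_cancel (x i)
    have hn : orderOf (a i * (a i * x i)) = orderOf (x i) := by rw [← mul_assoc, ha2, one_mul]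
    have hodd : Odd (orderOf (x i)) :=
      Odd.of_dvd_nat hLodd (orderOf_dvd_card_of_mem (hML hxM))
    refine ⟨Subgroup.zpowers_le.mpr haA, ?_, Subgroup.zpowers_le.mpr (hML hxM), ?_, ?_,
      nonempty_dihedral_of_inverts ha2 hinv hxx⟩
    · rw [Nat.card_zpowers]
      exact Cfsg.Agent.Lib.Helper4.orderOf_two_of_mul_self ha2 ha1
    · change Odd (orderOf (a i * (a i * x i)))
      rw [hn]; exact hodd
    · change 3 ≤ orderOf (a i * (a i * x i))
      rw [hn]
      obtain ⟨k, hk⟩ := hodd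
      have h1 : orderOf (x i) ≠ 1 := fun h => hx1 (orderOf_eq_one_iff.mp h)
      omega
  · apply le_antisymm
    · exact iSup_le (fun i => Subgroup.zpowers_le.mpr (hxa i).2.2.1)
    · intro b hb
      have h1 := hgen b hb
      refine (Subgroup.closure_le _).mpr ?_ h1
      rintro _ ⟨i, rfl⟩
      exact (le_iSup (fun i => Subgroup.zpowers (a i)) i) (Subgroup.mem_zpowers (a i))
  · intro i j hij
    obtain ⟨hxiM, -, haiA, -⟩ := hxa i
    obtain ⟨hxjM, -, hajA, -⟩ := hxa j
    exact comm_of_gens (isEA_comm hA haiA hajA) (hcomm i j hij)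
      (hcomm j i (Ne.symm hij)).symm (hMab _ hxiM _ hxjM)

end Cfsg.Agent.Lib.Helper23
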